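import Cfsg.Agent.H403.O1.SizeHighTwo
import Cfsg.Agent.H117.O1.SizeLow

/-!
# The size inequality (helper403, obstacle O1 of S4766)
-/

set_option autoImplicit false

namespace Cfsg.Agent.H403.O1

open Finset Nat Cfsg.Agent.H117.O1

theorem size {M a b s Y S g1 g2 : ℕ} (hM : 270 ≤ M) (hab : a + b + s = 2 * M) (hY : a = b + Y) (hs : 1 ≤ s)
    (hsS : s ≤ S) (hS : S ≤ s + 1) (h5Y : 5 * Y ≤ 2 * M) (h5s : 5 * s ≤ 6 * M)
    (hreg : (Y ^ 2 ≤ 11 * (M + 1) ∧ s + 1 ≤ b) ∨ (9999 ≤ M ∧ Y ^ 2 < 12 * (M + 1) * (s + 1)))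
    (hg1 : GB a S g1) (hg2 : GB b S g2) :
    M ^ 2 * ((s + 1) * (g1 * g2 * s.factorial)) < 2 * (2 * M - 1) * (max 1 Y) * (M.factorial) ^ 2 := by
  rcases le_or_gt M a with h | h
  · obtain ⟨x, hx⟩ : ∃ x, x = a - M := ⟨_, rfl⟩
    have ha : a = M + x := by omega
    have hb : b + x + s = M := by omega
    have hYx : Y = 2 * x + s := by omega
    have hmax : max 1 Y = 2 * x + s := by omega
    rw [hmax]
    rw [hYx] at hreg h5Y
    rcases Nat.lt_or_ge 1 s with h1 | h1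
    · exact high_two hM ha hb h1 h5Y hS (hreg.imp (fun h => h.1) id) hg1 hg2
    · have hs1 : s = 1 := by omega
      subst hs1
      exact high_one hM ha hb h5Y hS (hreg.imp (fun h => h.1) (fun h => ⟨h.1, by
        have := h.2
        omega⟩)) hg1 hg2
  · obtain ⟨i, hi⟩ : ∃ i, i = M - a := ⟨_, rfl⟩
    obtain ⟨j, hj⟩ : ∃ j, j = M - b := ⟨_, rfl⟩
    have hij : i + j = s := by omega
    have h1 := size_low (M := M) (a := a) (b := b) (i := i) (j := j) (S := S) (g1 := g1) (g2 := g2) hM (by omega) (by omega)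
      (by omega) (by omega) (by omega) (by omega) (by omega) (by omega)
      (hreg.imp (fun h => by omega) (fun h => h.1)) hg1 hg2
    rw [hij] at h1
    refine h1.trans_le ?_
    have h2 : 1 ≤ max 1 Y := le_max_left _ _
    calc 2 * (2 * M - 1) * (M.factorial) ^ 2 = 2 * (2 * M - 1) * 1 * (M.factorial) ^ 2 := by ring
      _ ≤ 2 * (2 * M - 1) * (max 1 Y) * (M.factorial) ^ 2 :=
        Nat.mul_le_mul_right _ (Nat.mul_le_mul_left _ h2)

/-- near-hook form -/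
theorem size_hook {M a b s Y S g1 g2 : ℕ} (hM : 270 ≤ M) (hab : a + b + s = 2 * M) (hY : a = b + Y) (hs : 1 ≤ s)
    (hsS : s ≤ S) (hS : S ≤ s + 1) (h5Y : 5 * Y ≤ 2 * M) (h5s : 5 * s ≤ 6 * M)
    (hreg : (Y ^ 2 ≤ 11 * (M + 1) ∧ s + 1 ≤ b) ∨ (9999 ≤ M ∧ Y ^ 2 < 12 * (M + 1) * (s + 1)))
    (hg1 : GB a S g1) (hg2 : GB b S g2) :
    (s + 1) * (g1 * g2 * s.factorial) < 2 * (M.factorial) ^ 2 := by
  have h1 := size hM hab hY hs hsS hS h5Y h5s hreg hg1 hg2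
  have h2 : (2 * M - 1) * max 1 Y ≤ M ^ 2 := by
    rcases le_total 1 Y with h | h
    · rw [max_eq_right h]
      obtain ⟨c, hc⟩ : ∃ c, 2 * M = c + 1 := ⟨2 * M - 1, by omega⟩
      rw [hc, Nat.add_sub_cancel]
      nlinarith
    · rw [max_eq_left h]
      obtain ⟨c, hc⟩ : ∃ c, 2 * M = c + 1 := ⟨2 * M - 1, by omega⟩
      rw [hc, Nat.add_sub_cancel]
      nlinarith
  have h3 : M ^ 2 * ((s + 1) * (g1 * g2 * s.factorial)) < M ^ 2 * (2 * (M.factorial) ^ 2) := by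
    refine h1.trans_le ?_
    calc 2 * (2 * M - 1) * (max 1 Y) * (M.factorial) ^ 2 = ((2 * M - 1) * max 1 Y) * (2 * (M.factorial) ^ 2) := by ring
      _ ≤ M ^ 2 * (2 * (M.factorial) ^ 2) := Nat.mul_le_mul_right _ h2
  exact lt_of_mul_lt_mul_left h3 (Nat.zero_le _)

/-- two-row form -/
theorem size_row {m a b s Y S g1 g2 : ℕ} (hm : 270 ≤ m) (hab : a + b + s = 2 * m + 2) (hY : a = b + Y) (hs : 1 ≤ s)
    (hY1 : 1 ≤ Y) (hsS : s ≤ S) (hS : S ≤ s + 1) (h5Y : 5 * Y ≤ 2 * m + 2) (h5s : 5 * s ≤ 6 * m + 6)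
    (hreg : (Y ^ 2 ≤ 11 * (m + 2) ∧ s + 1 ≤ b) ∨ (9998 ≤ m ∧ Y ^ 2 < 12 * (m + 2) * (s + 1)))
    (hg1 : GB a S g1) (hg2 : GB b S g2) :
    (s + 1) * (g1 * g2 * s.factorial) < 2 * ((2 * m + 1) * m.factorial ^ 2) * Y := by
  have h1 := size (M := m + 1) (by omega) (by omega) hY hs hsS hS (by omega) (by omega)
    (hreg.imp (fun h => ⟨h.1, h.2⟩) (fun h => ⟨by omega, h.2⟩)) hg1 hg2
  rw [max_eq_right hY1] at h1
  have h3 : (m + 1) ^ 2 * ((s + 1) * (g1 * g2 * s.factorial)) < (m + 1) ^ 2 * (2 * ((2 * m + 1) * m.factorial ^ 2) * Y) := by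
    refine h1.trans_le (le_of_eq ?_)
    rw [Nat.factorial_succ, show 2 * (m + 1) - 1 = 2 * m + 1 by omega]
    ring
  exact lt_of_mul_lt_mul_left h3 (Nat.zero_le _)

end Cfsg.Agent.H403.O1
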