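import Cfsg.Agent.H403.O1.GBound

/-!
# Size inequality for near-hooks and near-two-row partitions, tools (helper403, obstacle O1 of S4766)
-/

set_option autoImplicit false

namespace Cfsg.Agent.H403.O1

open Finset Nat

/-- `(M + x)! (M - x)! ≤ M!^2 exp (x^2 / (M - x + 1))` -/
theorem fac_bound (M : ℕ) : ∀ x : ℕ, x ≤ M → ((M + x).factorial : ℝ) * ((M - x).factorial : ℝ) ≤
    ((M.factorial : ℝ)) ^ 2 * Real.exp ((x : ℝ) ^ 2 / ((M : ℝ) - x + 1)) := by
  intro x
  induction x with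
  | zero =>
    intro _
    simp only [Nat.add_zero, Nat.sub_zero, Nat.cast_zero]
    rw [zero_pow (by norm_num), zero_div, Real.exp_zero]
    rw [mul_one, sq]
  | succ x ih =>
    intro hx
    have ih' := ih (by omega)
    have hu : (1 : ℝ) ≤ (M : ℝ) - x := by
      have : ((x + 1 : ℕ) : ℝ) ≤ M := by exact_mod_cast hx
      push_cast at this
      linarith
    have hu0 : (0 : ℝ) < (M : ℝ) - x := by linarith
    obtain ⟨y, hy⟩ : ∃ y, M = x + 1 + y := ⟨M - (x + 1), by omega⟩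
    have e1 : M - x = y + 1 := by omega
    have e2 : M - (x + 1) = y := by omega
    have e3 : ((y : ℝ) + 1) = (M : ℝ) - x := by
      rw [hy]; push_cast; ring
    have h1 : ((M + (x + 1)).factorial : ℝ) * ((M - (x + 1)).factorial : ℝ) * ((M : ℝ) - x) =
        ((M : ℝ) + x + 1) * (((M + x).factorial : ℝ) * ((M - x).factorial : ℝ)) := by
      rw [e1, e2, ← add_assoc, Nat.factorial_succ, Nat.factorial_succ, ← e3]
      push_cast
      ring
    have h2 : (M : ℝ) + x + 1 ≤ ((M : ℝ) - x) * Real.exp ((2 * x + 1) / ((M : ℝ) - x)) := by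
      have h3 := Real.add_one_le_exp ((2 * (x : ℝ) + 1) / ((M : ℝ) - x))
      have h4 : ((M : ℝ) - x) * ((2 * (x : ℝ) + 1) / ((M : ℝ) - x) + 1) = (M : ℝ) + x + 1 := by
        field_simp
        ring
      rw [← h4]
      exact mul_le_mul_of_nonneg_left h3 hu0.le
    have h5 : Real.exp ((2 * (x : ℝ) + 1) / ((M : ℝ) - x)) * Real.exp ((x : ℝ) ^ 2 / ((M : ℝ) - x + 1)) ≤
        Real.exp (((x + 1 : ℕ) : ℝ) ^ 2 / ((M : ℝ) - ((x + 1 : ℕ) : ℝ) + 1)) := by
      rw [← Real.exp_add]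
      apply Real.exp_le_exp.2
      have h6 : (x : ℝ) ^ 2 / ((M : ℝ) - x + 1) ≤ (x : ℝ) ^ 2 / ((M : ℝ) - x) := by
        apply div_le_div_of_nonneg_left (by positivity) hu0 (by linarith)
      have h7 : ((M : ℝ) - ((x + 1 : ℕ) : ℝ) + 1) = (M : ℝ) - x := by push_cast; ring
      rw [h7]
      have h8 : (((x + 1 : ℕ) : ℝ) ^ 2 / ((M : ℝ) - x)) = (2 * (x : ℝ) + 1) / ((M : ℝ) - x) + (x : ℝ) ^ 2 / ((M : ℝ) - x) := by
        push_cast
        field_simp
        ring
      rw [h8]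
      linarith
    have hP : (0 : ℝ) ≤ ((M + x).factorial : ℝ) * ((M - x).factorial : ℝ) := by positivity
    have h9 : ((M + (x + 1)).factorial : ℝ) * ((M - (x + 1)).factorial : ℝ) * ((M : ℝ) - x) ≤
        (((M.factorial : ℝ)) ^ 2 * Real.exp (((x + 1 : ℕ) : ℝ) ^ 2 / ((M : ℝ) - ((x + 1 : ℕ) : ℝ) + 1))) * ((M : ℝ) - x) := by
      rw [h1]
      calc ((M : ℝ) + x + 1) * (((M + x).factorial : ℝ) * ((M - x).factorial : ℝ))
          ≤ (((M : ℝ) - x) * Real.exp ((2 * x + 1) / ((M : ℝ) - x))) *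
            (((M + x).factorial : ℝ) * ((M - x).factorial : ℝ)) := mul_le_mul_of_nonneg_right h2 hP
        _ ≤ (((M : ℝ) - x) * Real.exp ((2 * x + 1) / ((M : ℝ) - x))) *
            (((M.factorial : ℝ)) ^ 2 * Real.exp ((x : ℝ) ^ 2 / ((M : ℝ) - x + 1))) := by
          apply mul_le_mul_of_nonneg_left ih'
          positivity
        _ = (((M : ℝ) - x) * ((M.factorial : ℝ)) ^ 2) * (Real.exp ((2 * x + 1) / ((M : ℝ) - x)) *
            Real.exp ((x : ℝ) ^ 2 / ((M : ℝ) - x + 1))) := by ring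
        _ ≤ (((M : ℝ) - x) * ((M.factorial : ℝ)) ^ 2) *
            Real.exp (((x + 1 : ℕ) : ℝ) ^ 2 / ((M : ℝ) - ((x + 1 : ℕ) : ℝ) + 1)) := by
          apply mul_le_mul_of_nonneg_left h5
          positivity
        _ = _ := by ring
    exact le_of_mul_le_mul_right h9 hu0

/-- from `GB` to a multiple of the factorial -/
theorem GB.le {x S g : ℕ} (h : GB x S g) (hS : S ≤ x) {c : ℝ}
    (hc : (x : ℝ) + 1 ≤ c * ((x : ℝ) + 1 - S)) : (g : ℝ) ≤ c * (x.factorial : ℝ) := by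
  have h1 := h.one hS
  have hpos : (0 : ℝ) < (x : ℝ) + 1 - S := by
    have : (S : ℝ) ≤ x := by exact_mod_cast hS
    linarith
  have h2 : (g : ℝ) * ((x : ℝ) + 1 - S) ≤ ((x : ℝ) + 1) * (x.factorial : ℝ) := by
    have h3 : ((g * (x + 1 - S) : ℕ) : ℝ) ≤ (((x + 1).factorial : ℕ) : ℝ) := by exact_mod_cast h1
    rw [Nat.factorial_succ] at h3
    push_cast [Nat.cast_sub (show S ≤ x + 1 by omega)] at h3
    exact h3
  have h4 : (g : ℝ) * ((x : ℝ) + 1 - S) ≤ (c * (x.factorial : ℝ)) * ((x : ℝ) + 1 - S) := by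
    refine h2.trans ?_
    have h5 : (0 : ℝ) ≤ (x.factorial : ℝ) := by positivity
    have h6 := mul_le_mul_of_nonneg_right hc h5
    linarith
  exact le_of_mul_le_mul_right h4 hpos

/-- reduction of the high case to a real inequality -/
theorem high_of {M a b x s Y g1 g2 : ℕ} {c : ℝ} (hM : 1 ≤ M) (ha : a = M + x) (hb : b + x + s = M) (hc : 0 ≤ c)
    (hG1 : (g1 : ℝ) * g2 ≤ c * ((a.factorial : ℝ) * (b.factorial : ℝ)))
    (h : (M : ℝ) ^ 2 * ((s : ℝ) + 1) * c * Real.exp ((x : ℝ) ^ 2 / ((M : ℝ) - x + 1)) <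
      2 * (2 * (M : ℝ) - 1) * Y * ((b + s).choose s : ℝ)) :
    M ^ 2 * ((s + 1) * (g1 * g2 * s.factorial)) < 2 * (2 * M - 1) * Y * (M.factorial) ^ 2 := by
  have hA : (0 : ℝ) < (M.factorial : ℝ) ^ 2 := by positivity
  have hC : (0 : ℝ) < ((b + s).choose s : ℝ) := by
    have : 0 < (b + s).choose s := Nat.choose_pos (by omega)
    exact_mod_cast this
  have h1 := fac_bound M x (by omega)
  have h2 : (a.factorial : ℝ) * (b.factorial : ℝ) * (s.factorial : ℝ) * ((b + s).choose s : ℝ) ≤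
      (M.factorial : ℝ) ^ 2 * Real.exp ((x : ℝ) ^ 2 / ((M : ℝ) - x + 1)) := by
    have h3 : (b + s).choose s * s.factorial * b.factorial = (b + s).factorial := by
      have := Nat.add_choose_mul_factorial_mul_factorial s b
      rw [add_comm s b, Nat.choose_symm_add] at this
      exact this
    have h4 : (a.factorial : ℝ) * (b.factorial : ℝ) * (s.factorial : ℝ) * ((b + s).choose s : ℝ) =
        (a.factorial : ℝ) * ((b + s).factorial : ℝ) := by
      rw [← h3]
      push_cast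
      ring
    rw [h4, ha, show b + s = M - x by omega]
    exact h1
  have h5 : ((M ^ 2 * ((s + 1) * (g1 * g2 * s.factorial)) : ℕ) : ℝ) * ((b + s).choose s : ℝ) <
      ((2 * (2 * M - 1) * Y * (M.factorial) ^ 2 : ℕ) : ℝ) * ((b + s).choose s : ℝ) := by
    push_cast [Nat.cast_sub (show 1 ≤ 2 * M by omega)]
    have hs0 : (0 : ℝ) ≤ (M : ℝ) ^ 2 * ((s : ℝ) + 1) := by positivity
    calc (M : ℝ) ^ 2 * (((s : ℝ) + 1) * ((g1 : ℝ) * g2 * (s.factorial : ℝ))) * ((b + s).choose s : ℝ)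
        = ((M : ℝ) ^ 2 * ((s : ℝ) + 1)) * (((g1 : ℝ) * g2) * ((s.factorial : ℝ) * ((b + s).choose s : ℝ))) := by ring
      _ ≤ ((M : ℝ) ^ 2 * ((s : ℝ) + 1)) * ((c * ((a.factorial : ℝ) * (b.factorial : ℝ))) *
            ((s.factorial : ℝ) * ((b + s).choose s : ℝ))) := by
          apply mul_le_mul_of_nonneg_left _ hs0
          apply mul_le_mul_of_nonneg_right hG1
          positivity
      _ = ((M : ℝ) ^ 2 * ((s : ℝ) + 1) * c) * ((a.factorial : ℝ) * (b.factorial : ℝ) * (s.factorial : ℝ) *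
            ((b + s).choose s : ℝ)) := by ring
      _ ≤ ((M : ℝ) ^ 2 * ((s : ℝ) + 1) * c) * ((M.factorial : ℝ) ^ 2 *
            Real.exp ((x : ℝ) ^ 2 / ((M : ℝ) - x + 1))) := by
          apply mul_le_mul_of_nonneg_left h2
          positivity
      _ = ((M : ℝ) ^ 2 * ((s : ℝ) + 1) * c * Real.exp ((x : ℝ) ^ 2 / ((M : ℝ) - x + 1))) *
            (M.factorial : ℝ) ^ 2 := by ring
      _ < (2 * (2 * (M : ℝ) - 1) * Y * ((b + s).choose s : ℝ)) * (M.factorial : ℝ) ^ 2 :=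
          mul_lt_mul_of_pos_right h hA
      _ = _ := by ring
  have h6 := lt_of_mul_lt_mul_right h5 hC.le
  exact_mod_cast h6

/-- `6 C(N, s) ≥ (s + 1) N (N - 1)` for `2 ≤ s ≤ N / 2` -/
theorem six_choose {N : ℕ} : ∀ s : ℕ, 2 ≤ s → 2 * s ≤ N → (s + 1) * (N * (N - 1)) ≤ 6 * N.choose s := by
  intro s hs
  induction s, hs using Nat.le_induction with
  | base =>
    intro h
    rw [Nat.choose_two_right]
    have h1 : 2 ∣ N * (N - 1) := (Nat.even_mul_pred_self N).two_dvd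
    omega
  | succ s hs ih =>
    intro h
    have ih' := ih (by omega)
    have h1 := Nat.choose_succ_right_eq N s
    -- C(N,s+1) (s+1) = C(N,s) (N-s)
    have h2 : (s + 1) * ((s + 1 + 1) * (N * (N - 1))) ≤ (s + 1) * (6 * N.choose (s + 1)) := by
      calc (s + 1) * ((s + 1 + 1) * (N * (N - 1))) = (s + 2) * ((s + 1) * (N * (N - 1))) := by ring
        _ ≤ (s + 2) * (6 * N.choose s) := Nat.mul_le_mul_left _ ih'
        _ ≤ (N - s) * (6 * N.choose s) := Nat.mul_le_mul_right _ (by omega)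
        _ = 6 * (N.choose s * (N - s)) := by ring
        _ = 6 * (N.choose (s + 1) * (s + 1)) := by rw [h1]
        _ = (s + 1) * (6 * N.choose (s + 1)) := by ring
    exact Nat.le_of_mul_le_mul_left h2 (by omega)

end Cfsg.Agent.H403.O1
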